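import Mathlib.LinearAlgebra.Matrix.NonsingularInverse
import Mathlib.LinearAlgebra.Basis.VectorSpace
import Mathlib.LinearAlgebra.FiniteDimensional.Lemmas
import Mathlib.RingTheory.Localization.FractionRing
import Mathlib.RingTheory.Localization.Integer
import Mathlib.LinearAlgebra.Matrix.ToLinearEquiv

/-!
# Either a nonzero determinant or a common linear relation
-/

set_option autoImplicit false

namespace Groth.Agent.Gaga.H66.DetRel

/-- A family of vectors in `L^ι`, `L` a domain: either some `ι`-tuple of them has nonzero determinant, or
there is a nonzero vector orthogonal to all of them. -/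
theorem exists_det_or_relation {L ι W : Type*} [CommRing L] [IsDomain L] [Fintype ι] [DecidableEq ι]
    (v : W → ι → L) :
    (∃ w : ι → W, (Matrix.of fun i j => v (w i) j).det ≠ 0) ∨
      ∃ q : ι → L, q ≠ 0 ∧ ∀ w, ∑ j, q j * v w j = 0 := by
  let K := FractionRing L
  let v' : W → ι → K := fun w j => algebraMap L K (v w j)
  by_cases hS : Submodule.span K (Set.range v') = ⊤
  · left
    obtain ⟨b, hb, hspan, hli⟩ := exists_linearIndependent K (Set.range v')
    rw [hS] at hspan
    let B : Module.Basis b K (ι → K) := Module.Basis.mk hli (by
      rw [Subtype.range_coe]; exact hspan.ge)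
    let e : b ≃ ι := B.indexEquiv (Pi.basisFun K ι)
    choose w hw using fun i : ι => hb (e.symm i).2
    refine ⟨w, fun hdet => ?_⟩
    have h1 : LinearIndependent K (fun i : ι => v' (w i)) := by
      have h2 : (fun i : ι => v' (w i)) = (Subtype.val : b → (ι → K)) ∘ e.symm := by
        funext i; exact hw i
      rw [h2]
      exact hli.comp _ e.symm.injective
    have h3 : IsUnit (Matrix.of fun i j => v' (w i) j) :=
      Matrix.linearIndependent_rows_iff_isUnit.1 h1
    rw [Matrix.isUnit_iff_isUnit_det] at h3
    have h4 : (Matrix.of fun i j => v' (w i) j).det =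
        algebraMap L K (Matrix.of fun i j => v (w i) j).det := by
      rw [RingHom.map_det]
      rfl
    rw [h4, hdet, map_zero] at h3
    exact not_isUnit_zero h3
  · right
    obtain ⟨f, hf, hle⟩ := Submodule.exists_le_ker_of_lt_top _ (lt_top_iff_ne_top.2 hS)
    obtain ⟨s, hs⟩ := IsLocalization.exist_integer_multiples_of_finite (nonZeroDivisors L)
      (fun j : ι => f (Pi.single j 1))
    choose q hq using hs
    have hfx : ∀ x : ι → K, f x = ∑ j, x j * f (Pi.single j 1) := by
      intro x
      conv_lhs => rw [← Finset.univ_sum_single x]
      rw [map_sum]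
      refine Finset.sum_congr rfl fun j _ => ?_
      have : Pi.single j (x j) = x j • (Pi.single j (1 : K) : ι → K) := by
        rw [← Pi.single_smul', smul_eq_mul, mul_one]
      rw [this, map_smul, smul_eq_mul]
    have hinj : Function.Injective (algebraMap L K) := IsFractionRing.injective L K
    refine ⟨q, fun hq0 => hf ?_, fun w => ?_⟩
    · have h1 : ∀ j : ι, f (Pi.single j 1) = 0 := by
        intro j
        have h2 := hq j
        rw [hq0, Pi.zero_apply, map_zero, Algebra.smul_def] at h2
        exact (mul_eq_zero.1 h2.symm).resolve_left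
          (IsLocalization.to_map_ne_zero_of_mem_nonZeroDivisors K le_rfl s.2)
      refine LinearMap.ext fun x => ?_
      rw [hfx x, LinearMap.zero_apply]
      exact Finset.sum_eq_zero fun j _ => by rw [h1 j, mul_zero]
    · apply hinj
      rw [map_sum, map_zero]
      have h1 : f (v' w) = 0 := hle (Submodule.subset_span ⟨w, rfl⟩)
      rw [hfx] at h1
      have h2 : ∑ j, algebraMap L K (q j * v w j) =
          algebraMap L K (s : L) * ∑ j, v' w j * f (Pi.single j 1) := by
        rw [Finset.mul_sum]
        refine Finset.sum_congr rfl fun j _ => ?_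
        rw [map_mul, hq j, Algebra.smul_def]
        ring
      rw [h2, h1, mul_zero]

end Groth.Agent.Gaga.H66.DetRel
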