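import Mathlib.Analysis.Complex.CauchyIntegral
import Mathlib.Analysis.Analytic.Uniqueness
import Mathlib.Analysis.Analytic.IsolatedZeros
import Mathlib.Analysis.Calculus.Deriv.Basic
import Mathlib.RingTheory.Algebraic.Integral
import Mathlib.Algebra.MvPolynomial.Equiv
import Mathlib.LinearAlgebra.AffineSpace.AffineMap
import Mathlib.LinearAlgebra.AffineSpace.Slope

/-!
# The ring of holomorphic functions on a convex open subset of `ℂⁿ`

`Hol U` is the `ℂ`-algebra of functions on `U` which are restrictions of functions complex differentiable on `U`.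
For `U` nonempty, open and convex it is a domain (identity theorem on complex lines).
It is an algebra over the polynomial ring in the coordinates.
-/

set_option autoImplicit false

open Set Filter Topology

namespace Groth.Agent.Gaga.H66.HolRing

section Line

variable {E : Type*} [NormedAddCommGroup E] [NormedSpace ℂ E]

/-- Identity theorem on a convex open set, by restriction to complex lines. -/
theorem eq_zero_of_eventually {U : Set E} (hU : IsOpen U) (hc : Convex ℝ U) {f : E → ℂ}
    (hf : DifferentiableOn ℂ f U) {x : E} (hx : x ∈ U) (h : ∀ᶠ y in 𝓝 x, f y = 0) :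
    ∀ y ∈ U, f y = 0 := by
  intro y hy
  let l : ℂ → E := fun t => x + t • (y - x)
  have hl : Differentiable ℂ l := by
    intro t
    exact ((differentiableAt_id).smul_const (y - x)).const_add x
  have hlc : Continuous l := hl.continuous
  let T : Set ℂ := l ⁻¹' U
  have hTo : IsOpen T := hU.preimage hlc
  have hTc : Convex ℝ T := by
    intro s hs t ht a b ha hb hab
    have h1 : l (a • s + b • t) = a • l s + b • l t := by
      have h2 : a • x + b • x = x := by rw [← add_smul, hab, one_smul]
      have h3 : a • l s + b • l t = (a • x + b • x) + (a • (s • (y - x)) + b • (t • (y - x))) := by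
        simp only [l, smul_add]
        abel
      rw [h3, h2]
      simp only [l]
      rw [add_smul, smul_assoc, smul_assoc]
    change l (a • s + b • t) ∈ U
    rw [h1]
    exact hc hs ht ha hb hab
  have hfl : DifferentiableOn ℂ (f ∘ l) T := hf.comp hl.differentiableOn (fun t ht => ht)
  have hA : AnalyticOnNhd ℂ (f ∘ l) T := hfl.analyticOnNhd hTo
  have h0 : (0 : ℂ) ∈ T := by
    change x + (0 : ℂ) • (y - x) ∈ U
    rw [zero_smul, add_zero]; exact hx
  have h1 : (1 : ℂ) ∈ T := by
    change x + (1 : ℂ) • (y - x) ∈ U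
    rw [one_smul, add_sub_cancel]; exact hy
  have hl0 : l 0 = x := by simp [l]
  have hl1 : l 1 = y := by simp [l]
  have hev : (f ∘ l) =ᶠ[𝓝 0] 0 := by
    have h2 : Tendsto l (𝓝 0) (𝓝 x) := by
      rw [← hl0]; exact hlc.tendsto 0
    exact h2.eventually h
  have h3 := hA.eqOn_zero_of_preconnected_of_eventuallyEq_zero hTc.isPreconnected h0 hev h1
  have h4 : f (l 1) = 0 := h3
  rwa [hl1] at h4

end Line

section Ring

variable {E : Type*} [NormedAddCommGroup E] [NormedSpace ℂ E]

/-- Holomorphic functions on `U`. -/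
def Hol (U : Set E) : Subalgebra ℂ (U → ℂ) where
  carrier := {f | ∃ g : E → ℂ, DifferentiableOn ℂ g U ∧ ∀ x : U, f x = g x}
  mul_mem' := by
    rintro f f' ⟨g, hg, hfg⟩ ⟨g', hg', hfg'⟩
    exact ⟨g * g', hg.mul hg', fun x => by simp [hfg, hfg']⟩
  add_mem' := by
    rintro f f' ⟨g, hg, hfg⟩ ⟨g', hg', hfg'⟩
    exact ⟨g + g', hg.add hg', fun x => by simp [hfg, hfg']⟩
  algebraMap_mem' := fun r => ⟨fun _ => r, differentiableOn_const r, fun x => rfl⟩

/-- The element of `Hol U` given by a function differentiable on `U`. -/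
def mk {U : Set E} (g : E → ℂ) (hg : DifferentiableOn ℂ g U) : Hol U := ⟨fun x => g x, g, hg, fun _ => rfl⟩

@[simp] theorem mk_apply {U : Set E} (g : E → ℂ) (hg : DifferentiableOn ℂ g U) (x : U) :
    (mk g hg).1 x = g x := rfl

theorem exists_mk {U : Set E} (f : Hol U) :
    ∃ (g : E → ℂ) (hg : DifferentiableOn ℂ g U), f = mk g hg := by
  obtain ⟨f, g, hg, hfg⟩ := f
  exact ⟨g, hg, Subtype.ext (funext hfg)⟩

/-- Evaluation at a point. -/
def ev {U : Set E} (x : U) : Hol U →ₐ[ℂ] ℂ := (Pi.evalAlgHom ℂ (fun _ : U => ℂ) x).comp (Hol U).val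

theorem ev_apply {U : Set E} (x : U) (f : Hol U) : ev x f = f.1 x := rfl

theorem ext_ev {U : Set E} {f g : Hol U} (h : ∀ x : U, ev x f = ev x g) : f = g :=
  Subtype.ext (funext h)

/-- `Hol U` is a domain. -/
theorem isDomain {U : Set E} (hU : IsOpen U) (hc : Convex ℝ U) (hne : U.Nonempty) :
    IsDomain (Hol U) := by
  obtain ⟨x₀, hx₀⟩ := hne
  have : Nontrivial (Hol U) := ⟨⟨0, 1, fun h => by
    have := congrArg (fun f : Hol U => ev ⟨x₀, hx₀⟩ f) h
    simp at this⟩⟩
  have : NoZeroDivisors (Hol U) := ⟨by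
    intro a b hab
    obtain ⟨f, hf, rfl⟩ := exists_mk a
    obtain ⟨g, hg, rfl⟩ := exists_mk b
    by_contra hcon
    push Not at hcon
    obtain ⟨h1, h2⟩ := hcon
    obtain ⟨x, hx⟩ : ∃ x : U, f x ≠ 0 := by
      by_contra h3
      push Not at h3
      exact h1 (ext_ev fun x => by rw [map_zero, ev_apply, mk_apply, h3])
    apply h2
    have hcont : ContinuousAt f x := (hf.differentiableAt (hU.mem_nhds x.2)).continuousAt
    have hev : ∀ᶠ y in 𝓝 (x : E), g y = 0 := by
      filter_upwards [hcont.eventually_ne hx, hU.mem_nhds x.2] with y hy hyU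
      have h4 := congrArg (ev ⟨y, hyU⟩) hab
      rw [map_mul, map_zero, ev_apply, ev_apply, mk_apply, mk_apply] at h4
      exact (mul_eq_zero.1 h4).resolve_left hy
    have h5 := eq_zero_of_eventually hU hc hg x.2 hev
    exact ext_ev fun y => by rw [map_zero, ev_apply, mk_apply, h5 y y.2]⟩
  exact NoZeroDivisors.to_isDomain _

end Ring

section Poly

variable {n : ℕ}

/-- The coordinate functions. -/
noncomputable def coord (U : Set (Fin n → ℂ)) (i : Fin n) : Hol U :=
  mk (fun x => x i) (differentiable_apply i).differentiableOn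

noncomputable instance instAlgebraHol (U : Set (Fin n → ℂ)) : Algebra (MvPolynomial (Fin n) ℂ) (Hol U) :=
  (MvPolynomial.aeval (R := ℂ) (coord U)).toRingHom.toAlgebra

theorem ev_algebraMap (U : Set (Fin n → ℂ)) (x : U) (p : MvPolynomial (Fin n) ℂ) :
    ev x (algebraMap (MvPolynomial (Fin n) ℂ) (Hol U) p) = MvPolynomial.eval x.1 p := by
  have h1 : (ev x).comp (MvPolynomial.aeval (R := ℂ) (coord U)) = MvPolynomial.aeval x.1 := by
    apply MvPolynomial.algHom_ext
    intro i
    simp only [AlgHom.comp_apply, MvPolynomial.aeval_X]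
    rfl
  exact congrArg (fun φ => φ p) h1

open Polynomial in
theorem ev_aeval (U : Set (Fin n → ℂ)) (x : U) (f : Hol U) (P : (MvPolynomial (Fin n) ℂ)[X]) :
    ev x (aeval f P) = (P.map (MvPolynomial.eval x.1)).eval (ev x f) := by
  have h1 : ((ev x : Hol U →ₐ[ℂ] ℂ) : Hol U →+* ℂ) (eval₂ (algebraMap _ (Hol U)) f P) =
      eval₂ (((ev x : Hol U →ₐ[ℂ] ℂ) : Hol U →+* ℂ).comp (algebraMap _ (Hol U))) (ev x f) P :=
    hom_eval₂ P _ _ _
  have h2 : (((ev x : Hol U →ₐ[ℂ] ℂ) : Hol U →+* ℂ).comp (algebraMap _ (Hol U))) =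
      MvPolynomial.eval x.1 := RingHom.ext fun p => ev_algebraMap U x p
  rw [h2] at h1
  rw [eval_map]
  exact h1

open Polynomial in
theorem isAlgebraic_iff (U : Set (Fin n → ℂ)) (f : Hol U) :
    IsAlgebraic (MvPolynomial (Fin n) ℂ) f ↔
      ∃ P : (MvPolynomial (Fin n) ℂ)[X], P ≠ 0 ∧
        ∀ x : U, (P.map (MvPolynomial.eval x.1)).eval (f.1 x) = 0 := by
  refine exists_congr fun P => and_congr_right fun _ => ⟨fun h x => ?_, fun h => ?_⟩
  · rw [← ev_apply, ← ev_aeval, h, map_zero]
  · exact ext_ev fun x => by rw [ev_aeval, map_zero, ev_apply]; exact h x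

end Poly

end Groth.Agent.Gaga.H66.HolRing
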