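import Mathlib.Analysis.Complex.Basic
import Mathlib.Topology.Baire.Lemmas
import Mathlib.Topology.Baire.CompleteMetrizable
import Mathlib.Topology.Baire.LocallyCompactRegular
import Mathlib.Topology.Maps.Proper.Basic
import Mathlib.Topology.MetricSpace.ProperSpace
import Mathlib.Topology.Algebra.Polynomial
import Mathlib.Analysis.Normed.Module.FiniteDimension
import Mathlib.Analysis.Normed.Module.Convex
import Mathlib.Analysis.Normed.Module.Basic
import Mathlib.Algebra.Polynomial.Eval.Degree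
import Mathlib.Algebra.Polynomial.Degree.Lemmas

/-!
# Uniform degree bound on a small ball, by Baire
-/

set_option autoImplicit false

open Set Filter Topology

namespace Groth.Agent.Gaga.H66.SepBaire

open Polynomial in
/-- A nonzero polynomial relation in two variables, written with a finite array of coefficients. -/
theorem exists_array (P : Polynomial (Polynomial ℂ)) (hP : P ≠ 0) :
    ∃ k : ℕ, ∃ Q : Fin (k + 1) × Fin (k + 1) → ℂ, Q ≠ 0 ∧ ∀ w x : ℂ,
      (P.map (Polynomial.evalRingHom w)).eval x =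
        ∑ ab, Q ab * (w ^ (ab.1 : ℕ) * x ^ (ab.2 : ℕ)) := by
  let k : ℕ := P.natDegree + ∑ b ∈ Finset.range (P.natDegree + 1), (P.coeff b).natDegree
  have hk1 : P.natDegree ≤ k := Nat.le_add_right _ _
  have hk2 : ∀ b, (P.coeff b).natDegree ≤ k := by
    intro b
    by_cases hb : b ∈ Finset.range (P.natDegree + 1)
    · exact (Finset.single_le_sum (f := fun b => (P.coeff b).natDegree)
        (fun i _ => Nat.zero_le _) hb).trans (Nat.le_add_left _ _)
    · rw [Finset.mem_range, not_lt] at hb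
      rw [Polynomial.coeff_eq_zero_of_natDegree_lt (by omega), natDegree_zero]
      exact Nat.zero_le _
  refine ⟨k, fun ab => (P.coeff ab.2).coeff ab.1, fun hQ => hP ?_, fun w x => ?_⟩
  · ext b a
    rw [coeff_zero, coeff_zero]
    by_cases hb : b < k + 1
    · by_cases ha : a < k + 1
      · exact congrFun hQ (⟨a, ha⟩, ⟨b, hb⟩)
      · exact Polynomial.coeff_eq_zero_of_natDegree_lt (by have := hk2 b; omega)
    · rw [Polynomial.coeff_eq_zero_of_natDegree_lt (p := P) (by omega), coeff_zero]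
  · rw [Polynomial.eval_eq_sum_range' (n := k + 1)
      (lt_of_le_of_lt ((natDegree_map_le (f := evalRingHom w) (p := P)).trans hk1) (Nat.lt_succ_self k)),
      Finset.sum_range, Fintype.sum_prod_type, Finset.sum_comm]
    refine Finset.sum_congr rfl fun b _ => ?_
    rw [coeff_map, coe_evalRingHom, Polynomial.eval_eq_sum_range' (n := k + 1)
      (lt_of_le_of_lt (hk2 b) (Nat.lt_succ_self k)), Finset.sum_range, Finset.sum_mul]
    refine Finset.sum_congr rfl fun a _ => ?_
    ring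

/-- Baire: on a small ball the degree of the relation is bounded. -/
theorem exists_ball {n : ℕ} (D0 : Set ℂ) (U : Set (Fin n → ℂ)) (hU : IsOpen U) (hne : U.Nonempty)
    (F : ℂ → (Fin n → ℂ) → ℂ) (hF : ∀ w ∈ D0, ContinuousOn (F w) U)
    (H : ∀ z ∈ U, ∃ P : Polynomial (Polynomial ℂ), P ≠ 0 ∧
      ∀ w ∈ D0, (P.map (Polynomial.evalRingHom w)).eval (F w z) = 0) :
    ∃ (k : ℕ) (V : Set (Fin n → ℂ)), IsOpen V ∧ Convex ℝ V ∧ V.Nonempty ∧ V ⊆ U ∧
      ∀ z ∈ V, ∃ Q : Fin (k + 1) × Fin (k + 1) → ℂ, Q ≠ 0 ∧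
        ∀ w ∈ D0, ∑ ab, Q ab * (w ^ (ab.1 : ℕ) * (F w z) ^ (ab.2 : ℕ)) = 0 := by
  have : BaireSpace U := hU.baireSpace
  have : Nonempty U := hne.to_subtype
  let E : ℕ → Set U := fun k => {z | ∃ Q : Fin (k + 1) × Fin (k + 1) → ℂ, Q ≠ 0 ∧
        ∀ w ∈ D0, ∑ ab, Q ab * (w ^ (ab.1 : ℕ) * (F w z) ^ (ab.2 : ℕ)) = 0}
  have hcl : ∀ k, IsClosed (E k) := by
    intro k
    let S := Metric.sphere (0 : Fin (k + 1) × Fin (k + 1) → ℂ) 1
    have : CompactSpace S := isCompact_iff_compactSpace.1 (isCompact_sphere _ _)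
    let T : Set (U × S) := {p | ∀ w ∈ D0,
      ∑ ab, p.2.1 ab * (w ^ (ab.1 : ℕ) * (F w p.1) ^ (ab.2 : ℕ)) = 0}
    have hT : IsClosed T := by
      have h1 : T = ⋂ w ∈ D0, {p : U × S |
          ∑ ab, p.2.1 ab * (w ^ (ab.1 : ℕ) * (F w p.1) ^ (ab.2 : ℕ)) = 0} := by
        ext p; simp [T]
      rw [h1]
      refine isClosed_biInter fun w hw => isClosed_eq ?_ continuous_const
      have h2 : Continuous fun p : U × S => F w p.1 :=
        (continuousOn_iff_continuous_domRestrict.1 (hF w hw)).comp continuous_fst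
      refine continuous_finsetSum _ fun ab _ => ?_
      exact ((continuous_apply ab).comp (continuous_subtype_val.comp continuous_snd)).mul
        (continuous_const.mul (h2.pow _))
    have h3 : E k = Prod.fst '' T := by
      ext z
      constructor
      · rintro ⟨Q, hQ, hz⟩
        have hnorm : ‖Q‖ ≠ 0 := norm_ne_zero_iff.2 hQ
        refine ⟨(z, ⟨((‖Q‖ : ℂ)⁻¹) • Q, ?_⟩), fun w hw => ?_, rfl⟩
        · rw [mem_sphere_zero_iff_norm, norm_smul, norm_inv, Complex.norm_real, norm_norm,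
            inv_mul_cancel₀ hnorm]
        · change ∑ ab, (((‖Q‖ : ℂ)⁻¹) • Q) ab * (w ^ (ab.1 : ℕ) * (F w z) ^ (ab.2 : ℕ)) = 0
          have := hz w hw
          rw [← mul_zero ((‖Q‖ : ℂ)⁻¹), ← this, Finset.mul_sum]
          refine Finset.sum_congr rfl fun ab _ => ?_
          rw [Pi.smul_apply, smul_eq_mul, mul_assoc]
      · rintro ⟨⟨z', Q⟩, hz, rfl⟩
        refine ⟨Q.1, fun h0 => ?_, hz⟩
        have h4 := Q.2
        rw [mem_sphere_zero_iff_norm, h0, norm_zero] at h4
        exact zero_ne_one h4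
    rw [h3]
    exact isClosedMap_fst_of_compactSpace _ hT
  have hun : ⋃ k, E k = univ := by
    refine eq_univ_of_forall fun z => ?_
    obtain ⟨P, hP, hz⟩ := H z.1 z.2
    obtain ⟨k, Q, hQ, hQP⟩ := exists_array P hP
    refine mem_iUnion.2 ⟨k, Q, hQ, fun w hw => ?_⟩
    rw [← hQP]
    exact hz w hw
  obtain ⟨k, z, hz⟩ := nonempty_interior_of_iUnion_of_closed hcl hun
  have hopen : IsOpen (Subtype.val '' interior (E k)) := hU.isOpenMap_subtype_val _ isOpen_interior
  obtain ⟨ε, hε, hball⟩ := Metric.isOpen_iff.1 hopen z.1 ⟨z, hz, rfl⟩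
  refine ⟨k, Metric.ball z.1 ε, Metric.isOpen_ball, convex_ball _ _, ⟨z.1, Metric.mem_ball_self hε⟩,
    fun x hx => ?_, fun x hx => ?_⟩
  · obtain ⟨y, _, rfl⟩ := hball hx
    exact y.2
  · obtain ⟨y, hy, rfl⟩ := hball hx
    have h5 : y ∈ E k := interior_subset hy
    exact h5

end Groth.Agent.Gaga.H66.SepBaire
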