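import Groth.Agent.Gaga.H66.SepStep
import Groth.Agent.Gaga.H66.SepBaire

/-!
# Separately algebraic holomorphic functions on a convex polydomain are algebraic
-/

set_option autoImplicit false

open Set Filter Topology

namespace Groth.Agent.Gaga.H66.SepAlg

open HolRing SepStep

theorem differentiable_cons {n : ℕ} (w : ℂ) :
    Differentiable ℂ (fun z : Fin n → ℂ => (Fin.cons w z : Fin (n + 1) → ℂ)) := by
  refine differentiable_pi.2 fun i => ?_
  refine Fin.cases ?_ (fun j => ?_) i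
  · simp only [Fin.cons_zero]
    exact differentiable_const w
  · simp only [Fin.cons_succ]
    exact differentiable_apply j

theorem cons_mem {n : ℕ} (D : Fin (n + 1) → Set ℂ) {w : ℂ} (hw : w ∈ D 0) {z : Fin n → ℂ}
    (hz : z ∈ Set.pi Set.univ (fun i : Fin n => D i.succ)) :
    (Fin.cons w z : Fin (n + 1) → ℂ) ∈ Set.pi Set.univ D := by
  intro i _
  refine Fin.cases ?_ (fun j => ?_) i
  · exact hw
  · exact hz j (mem_univ j)

theorem convex_pi' {n : ℕ} (D : Fin n → Set ℂ) (hDc : ∀ i, Convex ℝ (D i)) :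
    Convex ℝ (Set.pi Set.univ D) := convex_pi fun i _ => hDc i

theorem isOpen_pi {n : ℕ} (D : Fin n → Set ℂ) (hD : ∀ i, IsOpen (D i)) :
    IsOpen (Set.pi Set.univ D) := isOpen_set_pi finite_univ fun i _ => hD i

theorem sepAlg_aux (n : ℕ) : ∀ (D : Fin n → Set ℂ) (_ : ∀ i, IsOpen (D i))
    (_ : ∀ i, Convex ℝ (D i)) (_ : ∀ i, (D i).Nonempty) (h : (Fin n → ℂ) → ℂ)
    (hh : DifferentiableOn ℂ h (Set.pi Set.univ D))
    (_ : ∀ i, ∀ z ∈ Set.pi Set.univ D, ∃ P : Polynomial (Polynomial ℂ), P ≠ 0 ∧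
      ∀ w ∈ D i, (P.map (Polynomial.evalRingHom w)).eval (h (Function.update z i w)) = 0),
    IsAlgebraic (MvPolynomial (Fin n) ℂ) (mk h hh) := by
  induction n with
  | zero =>
    intro D _ _ _ h hh _
    rw [isAlgebraic_iff]
    refine ⟨Polynomial.X - Polynomial.C (MvPolynomial.C (h 0)), Polynomial.X_sub_C_ne_zero _,
      fun x => ?_⟩
    rw [Polynomial.map_sub, Polynomial.map_X, Polynomial.map_C, MvPolynomial.eval_C,
      Polynomial.eval_sub, Polynomial.eval_X, Polynomial.eval_C, mk_apply, Subsingleton.elim x.1 0,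
      sub_self]
  | succ n ih =>
    intro D hD hDc hne h hh H
    let D' : Fin n → Set ℂ := fun i => D i.succ
    let U : Set (Fin n → ℂ) := Set.pi Set.univ D'
    have hU : IsOpen U := isOpen_pi D' fun i => hD i.succ
    have hUne : U.Nonempty := univ_pi_nonempty_iff.2 fun i => hne i.succ
    have hcons : ∀ {w : ℂ}, w ∈ D 0 → ∀ {z : Fin n → ℂ}, z ∈ U →
        (Fin.cons w z : Fin (n + 1) → ℂ) ∈ Set.pi Set.univ D := fun hw _ hz => cons_mem D hw hz
    let F : ℂ → (Fin n → ℂ) → ℂ := fun w z => h (Fin.cons w z)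
    have hF : ∀ w ∈ D 0, DifferentiableOn ℂ (F w) U := fun w hw =>
      hh.comp (differentiable_cons w).differentiableOn fun z hz => hcons hw hz
    have hFa : ∀ (w : ℂ) (hw : w ∈ D 0), IsAlgebraic (MvPolynomial (Fin n) ℂ) (mk (F w) (hF w hw)) := by
      intro w hw
      refine ih D' (fun i => hD i.succ) (fun i => hDc i.succ) (fun i => hne i.succ) (F w) (hF w hw) ?_
      intro i z hz
      obtain ⟨P, hP, hPz⟩ := H i.succ (Fin.cons w z) (hcons hw hz)
      refine ⟨P, hP, fun u hu => ?_⟩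
      have h1 := hPz u hu
      rw [← Fin.cons_update] at h1
      exact h1
    have hB : ∀ z ∈ U, ∃ P : Polynomial (Polynomial ℂ), P ≠ 0 ∧
        ∀ w ∈ D 0, (P.map (Polynomial.evalRingHom w)).eval (F w z) = 0 := by
      intro z hz
      obtain ⟨w₀, hw₀⟩ := hne 0
      obtain ⟨P, hP, hPz⟩ := H 0 (Fin.cons w₀ z) (hcons hw₀ hz)
      refine ⟨P, hP, fun u hu => ?_⟩
      have h1 := hPz u hu
      rw [Fin.update_cons_zero] at h1
      exact h1
    obtain ⟨k, V, hV, hVc, hVne, hVU, hQ⟩ := SepBaire.exists_ball (D 0) U hU hUne F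
      (fun w hw => (hF w hw).continuousOn) hB
    obtain ⟨q, hq, hqa, hrel⟩ := exists_relation (k := k) (D0 := D 0) hV hVc hVne
      (fun w => mk (F w.1) ((hF w.1 w.2).mono hVU))
      (fun w => isAlgebraic_restrict hVU _ _ (hFa w.1 w.2))
      (fun z => by
        obtain ⟨Q, hQ0, hQz⟩ := hQ z.1 z.2
        exact ⟨Q, hQ0, fun w => hQz w.1 w.2⟩)
    have hsub : Tube (D 0) V ⊆ Set.pi Set.univ D := by
      intro z hz
      rw [← Fin.cons_self_tail z]
      exact hcons hz.1 (hVU hz.2)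
    refine isAlgebraic_of_restrict (isOpen_pi D hD) (convex_pi' D hDc)
      (isOpen_tube (hD 0) hV) (nonempty_tube (hne 0) hVne) hsub h hh ?_
    refine isAlgebraic_tube (hD 0) (hDc 0) (hne 0) hV hVc hVne _ q hq hqa fun z => ?_
    have h1 := congrArg (ev ⟨Fin.tail z.1, z.2.2⟩) (hrel ⟨z.1 0, z.2.1⟩)
    rw [map_zero, map_sum] at h1
    rw [← h1]
    refine Finset.sum_congr rfl fun ab _ => ?_
    rw [map_mul, map_mul, AlgHom.commutes, map_pow (ev _) (HolRing.mk _ _)]
    have h2 : ev (⟨Fin.tail z.1, z.2.2⟩ : V) (mk (F (z.1 0)) ((hF _ z.2.1).mono hVU)) = h z.1 := by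
      change h (Fin.cons (z.1 0) (Fin.tail z.1)) = h z.1
      rw [Fin.cons_self_tail]
    rw [h2]
    rfl

/-- A holomorphic function on a product of convex open sets which is algebraic in each variable separately is
algebraic. -/
theorem sepAlg {n : ℕ} (D : Fin n → Set ℂ) (hD : ∀ i, IsOpen (D i)) (hDc : ∀ i, Convex ℝ (D i))
    (hne : ∀ i, (D i).Nonempty) (h : (Fin n → ℂ) → ℂ)
    (hh : DifferentiableOn ℂ h (Set.pi Set.univ D))
    (H : ∀ i, ∀ z ∈ Set.pi Set.univ D, ∃ P : Polynomial (Polynomial ℂ), P ≠ 0 ∧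
      ∀ w ∈ D i, (P.map (Polynomial.evalRingHom w)).eval (h (Function.update z i w)) = 0) :
    ∃ P : Polynomial (MvPolynomial (Fin n) ℂ), P ≠ 0 ∧
      ∀ z ∈ Set.pi Set.univ D, (P.map (MvPolynomial.eval z)).eval (h z) = 0 := by
  obtain ⟨P, hP, hPz⟩ := (isAlgebraic_iff _ _).1 (sepAlg_aux n D hD hDc hne h hh H)
  exact ⟨P, hP, fun z hz => hPz ⟨z, hz⟩⟩

end Groth.Agent.Gaga.H66.SepAlg
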