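import Groth.Agent.Gaga.H66.HolRing
import Groth.Agent.Gaga.H66.DetRel
import Mathlib.Topology.Algebra.Module.Basic
import Mathlib.Analysis.Normed.Module.Basic
import Mathlib.Analysis.Calculus.FDeriv.Pi
import Mathlib.Topology.Perfect
import Mathlib.Algebra.MvPolynomial.Rename

/-!
# One step of the induction: from a relation in one variable to algebraicity
-/

set_option autoImplicit false

open Set Filter Topology

namespace Groth.Agent.Gaga.H66.SepStep

open HolRing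

/-- A common relation with algebraic holomorphic coefficients. -/
theorem exists_relation {n k : ℕ} {D0 : Set ℂ} {V : Set (Fin n → ℂ)} (hV : IsOpen V)
    (hVc : Convex ℝ V) (hVne : V.Nonempty) (F : D0 → Hol V)
    (hF : ∀ w, IsAlgebraic (MvPolynomial (Fin n) ℂ) (F w))
    (hQ : ∀ z : V, ∃ Q : Fin (k + 1) × Fin (k + 1) → ℂ, Q ≠ 0 ∧
      ∀ w : D0, ∑ ab, Q ab * (w.1 ^ (ab.1 : ℕ) * (ev z (F w)) ^ (ab.2 : ℕ)) = 0) :
    ∃ q : Fin (k + 1) × Fin (k + 1) → Hol V, q ≠ 0 ∧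
      (∀ ab, IsAlgebraic (MvPolynomial (Fin n) ℂ) (q ab)) ∧
      ∀ w : D0, ∑ ab, q ab * (algebraMap ℂ (Hol V) (w.1 ^ (ab.1 : ℕ)) * (F w) ^ (ab.2 : ℕ)) = 0 := by
  have hdom : IsDomain (Hol V) := isDomain hV hVc hVne
  let R := MvPolynomial (Fin n) ℂ
  let L : Subalgebra R (Hol V) := Subalgebra.algebraicClosure R (Hol V)
  have hconst : ∀ c : ℂ, algebraMap ℂ (Hol V) c = algebraMap R (Hol V) (MvPolynomial.C c) := by
    intro c
    refine ext_ev fun x => ?_
    rw [ev_algebraMap, MvPolynomial.eval_C, AlgHom.commutes]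
    rfl
  let v : D0 → Fin (k + 1) × Fin (k + 1) → L := fun w ab =>
    algebraMap R L (MvPolynomial.C (w.1 ^ (ab.1 : ℕ))) * (⟨F w, hF w⟩ : L) ^ (ab.2 : ℕ)
  have hv : ∀ w ab, (v w ab : Hol V) =
      algebraMap ℂ (Hol V) (w.1 ^ (ab.1 : ℕ)) * (F w) ^ (ab.2 : ℕ) := by
    intro w ab
    rw [hconst]
    rfl
  rcases Groth.Agent.Gaga.H66.DetRel.exists_det_or_relation v with ⟨w, hw⟩ | ⟨q, hq, hqv⟩
  · exfalso
    apply hw
    apply Subtype.ext
    refine ext_ev fun z => ?_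
    obtain ⟨Q, hQ0, hQz⟩ := hQ z
    let φ : L →+* ℂ := ((ev z : Hol V →ₐ[ℂ] ℂ) : Hol V →+* ℂ).comp (algebraMap L (Hol V))
    suffices hd : φ ((Matrix.of fun i j => v (w i) j).det) = 0 from hd.trans (map_zero φ).symm
    refine (RingHom.map_det φ (Matrix.of fun i j => v (w i) j)).trans ?_
    apply Matrix.exists_mulVec_eq_zero_iff.1
    refine ⟨Q, hQ0, ?_⟩
    funext i
    rw [Pi.zero_apply, ← hQz (w i)]
    change ∑ j, φ (v (w i) j) * Q j = _
    refine Finset.sum_congr rfl fun ab _ => ?_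
    rw [mul_comm]
    congr 1
    change ev z (v (w i) ab : Hol V) = _
    rw [hv, map_mul (ev z), map_pow (ev z) (F (w i)), AlgHom.commutes]
    rfl
  · refine ⟨fun ab => q ab, fun h0 => hq ?_, fun ab => (q ab).2, fun w => ?_⟩
    · funext ab
      exact Subtype.ext (congrFun h0 ab)
    · have h1 := congrArg (algebraMap L (Hol V)) (hqv w)
      rw [map_sum, map_zero] at h1
      rw [← h1]
      refine Finset.sum_congr rfl fun ab _ => ?_
      rw [map_mul, ← hv]
      rfl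

/-- The tube over `V` with basis `D0` in the first variable. -/
def Tube {n : ℕ} (D0 : Set ℂ) (V : Set (Fin n → ℂ)) : Set (Fin (n + 1) → ℂ) :=
  {z | z 0 ∈ D0 ∧ Fin.tail z ∈ V}

theorem continuous_tail {n : ℕ} : Continuous (Fin.tail : (Fin (n + 1) → ℂ) → (Fin n → ℂ)) :=
  continuous_pi fun i => continuous_apply i.succ

theorem differentiable_tail {n : ℕ} :
    Differentiable ℂ (Fin.tail : (Fin (n + 1) → ℂ) → (Fin n → ℂ)) :=
  differentiable_pi.2 fun i => differentiable_apply i.succ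

theorem isOpen_tube {n : ℕ} {D0 : Set ℂ} {V : Set (Fin n → ℂ)} (h0 : IsOpen D0) (hV : IsOpen V) :
    IsOpen (Tube D0 V) :=
  (h0.preimage (continuous_apply 0)).inter (hV.preimage continuous_tail)

theorem convex_tube {n : ℕ} {D0 : Set ℂ} {V : Set (Fin n → ℂ)} (h0 : Convex ℝ D0)
    (hV : Convex ℝ V) : Convex ℝ (Tube D0 V) := by
  intro x hx y hy a b ha hb hab
  exact ⟨h0 hx.1 hy.1 ha hb hab, hV hx.2 hy.2 ha hb hab⟩

theorem nonempty_tube {n : ℕ} {D0 : Set ℂ} {V : Set (Fin n → ℂ)} (h0 : D0.Nonempty)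
    (hV : V.Nonempty) : (Tube D0 V).Nonempty := by
  obtain ⟨w, hw⟩ := h0
  obtain ⟨z, hz⟩ := hV
  exact ⟨Fin.cons w z, by simpa [Tube] using ⟨hw, hz⟩⟩

/-- Pullback of holomorphic functions along the projection of the tube. -/
def pull {n : ℕ} (D0 : Set ℂ) (V : Set (Fin n → ℂ)) : Hol V →+* Hol (Tube D0 V) where
  toFun f := ⟨fun z => f.1 ⟨Fin.tail z.1, z.2.2⟩, by
    obtain ⟨f, g, hg, hfg⟩ := f
    exact ⟨fun z => g (Fin.tail z), hg.comp differentiable_tail.differentiableOn fun z hz => hz.2,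
      fun z => hfg _⟩⟩
  map_one' := rfl
  map_mul' _ _ := rfl
  map_zero' := rfl
  map_add' _ _ := rfl

theorem ev_pull {n : ℕ} (D0 : Set ℂ) (V : Set (Fin n → ℂ)) (f : Hol V) (z : Tube D0 V) :
    ev z (pull D0 V f) = ev ⟨Fin.tail z.1, z.2.2⟩ f := rfl

theorem isAlgebraic_pull {n : ℕ} (D0 : Set ℂ) (V : Set (Fin n → ℂ)) {f : Hol V}
    (hf : IsAlgebraic (MvPolynomial (Fin n) ℂ) f) :
    IsAlgebraic (MvPolynomial (Fin (n + 1)) ℂ) (pull D0 V f) := by
  refine hf.ringHom_of_comp_eq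
    (f := ((MvPolynomial.rename Fin.succ : MvPolynomial (Fin n) ℂ →ₐ[ℂ] _) :
      MvPolynomial (Fin n) ℂ →+* MvPolynomial (Fin (n + 1)) ℂ)) (g := pull D0 V) ?_ ?_
  · exact MvPolynomial.rename_injective _ (Fin.succ_injective n)
  · refine RingHom.ext fun p => ext_ev fun z => ?_
    change ev z (algebraMap _ _ (MvPolynomial.rename Fin.succ p)) =
      ev z (pull D0 V (algebraMap _ _ p))
    rw [ev_pull, ev_algebraMap, ev_algebraMap, MvPolynomial.eval_rename]
    rfl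

/-- Algebraicity on the tube. -/
theorem isAlgebraic_tube {n k : ℕ} {D0 : Set ℂ} {V : Set (Fin n → ℂ)} (h0 : IsOpen D0)
    (h0c : Convex ℝ D0) (h0ne : D0.Nonempty) (hV : IsOpen V) (hVc : Convex ℝ V)
    (hVne : V.Nonempty) (h : Hol (Tube D0 V)) (q : Fin (k + 1) × Fin (k + 1) → Hol V) (hq : q ≠ 0)
    (hqa : ∀ ab, IsAlgebraic (MvPolynomial (Fin n) ℂ) (q ab))
    (hrel : ∀ z : Tube D0 V, ∑ ab, ev ⟨Fin.tail z.1, z.2.2⟩ (q ab) *
      ((z.1 0) ^ (ab.1 : ℕ) * (ev z h) ^ (ab.2 : ℕ)) = 0) :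
    IsAlgebraic (MvPolynomial (Fin (n + 1)) ℂ) h := by
  have hdom : IsDomain (Hol (Tube D0 V)) :=
    isDomain (isOpen_tube h0 hV) (convex_tube h0c hVc) (nonempty_tube h0ne hVne)
  let R := MvPolynomial (Fin (n + 1)) ℂ
  let L : Subalgebra R (Hol (Tube D0 V)) := Subalgebra.algebraicClosure R (Hol (Tube D0 V))
  let c : Fin (k + 1) × Fin (k + 1) → L := fun ab =>
    ⟨pull D0 V (q ab), isAlgebraic_pull D0 V (hqa ab)⟩ * algebraMap R L (MvPolynomial.X 0 ^ (ab.1 : ℕ))
  let S : Polynomial L := ∑ b : Fin (k + 1), Polynomial.C (∑ a : Fin (k + 1), c (a, b)) *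
    Polynomial.X ^ (b : ℕ)
  have hS : S ≠ 0 := by
    intro hS0
    obtain ⟨⟨a₀, b₀⟩, hab⟩ : ∃ ab, q ab ≠ 0 := by
      by_contra hcon
      push Not at hcon
      exact hq (funext hcon)
    obtain ⟨z', hz'⟩ : ∃ z' : V, ev z' (q (a₀, b₀)) ≠ 0 := by
      by_contra hcon
      push Not at hcon
      exact hab (ext_ev fun x => by rw [hcon, map_zero])
    have hcoef : ∑ a : Fin (k + 1), c (a, b₀) = 0 := by
      have h1 := congrArg (fun S => Polynomial.coeff S (b₀ : ℕ)) hS0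
      simp only [S, Polynomial.finsetSum_coeff, Polynomial.coeff_C_mul, Polynomial.coeff_X_pow,
        Polynomial.coeff_zero] at h1
      rw [Finset.sum_eq_single b₀] at h1
      · rwa [if_pos rfl, mul_one] at h1
      · intro b _ hb
        rw [if_neg (fun h => hb (Fin.ext h.symm)), mul_zero]
      · intro h; exact absurd (Finset.mem_univ _) h
    let p : Polynomial ℂ := ∑ a : Fin (k + 1), Polynomial.C (ev z' (q (a, b₀))) *
      Polynomial.X ^ (a : ℕ)
    have hp : p = 0 := by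
      have hinf : D0.Infinite := by
        obtain ⟨w, hw⟩ := h0ne
        exact infinite_of_mem_nhds w (h0.mem_nhds hw)
      refine Polynomial.eq_zero_of_infinite_isRoot p (hinf.mono fun w hw => ?_)
      have hz : (Fin.cons w z'.1 : Fin (n + 1) → ℂ) ∈ Tube D0 V := by
        refine ⟨hw, ?_⟩
        rw [Fin.tail_cons]; exact z'.2
      let φ : L →+* ℂ := ((ev ⟨_, hz⟩ : Hol (Tube D0 V) →ₐ[ℂ] ℂ) : Hol (Tube D0 V) →+* ℂ).comp
        (algebraMap L (Hol (Tube D0 V)))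
      have h2 := congrArg φ hcoef
      rw [map_sum, map_zero] at h2
      change p.eval w = 0
      rw [Polynomial.eval_finsetSum, ← h2]
      refine Finset.sum_congr rfl fun a _ => ?_
      rw [Polynomial.eval_mul, Polynomial.eval_C, Polynomial.eval_pow, Polynomial.eval_X, map_mul]
      congr 1
      change _ = ev _ (algebraMap R (Hol (Tube D0 V)) (MvPolynomial.X 0 ^ (a : ℕ)))
      rw [ev_algebraMap, map_pow, MvPolynomial.eval_X]
      rfl
    have h3 := congrArg (fun p => Polynomial.coeff p (a₀ : ℕ)) hp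
    simp only [p, Polynomial.finsetSum_coeff, Polynomial.coeff_C_mul, Polynomial.coeff_X_pow,
        Polynomial.coeff_zero] at h3
    rw [Finset.sum_eq_single a₀] at h3
    · rw [if_pos rfl, mul_one] at h3
      exact hz' h3
    · intro b _ hb
      rw [if_neg (fun h => hb (Fin.ext h.symm)), mul_zero]
    · intro h; exact absurd (Finset.mem_univ _) h
  have hroot : Polynomial.aeval h S = 0 := by
    refine ext_ev fun z => ?_
    rw [map_zero, ← hrel z, Fintype.sum_prod_type, Finset.sum_comm]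
    simp only [S, map_sum, map_mul, Polynomial.aeval_C, map_pow, Polynomial.aeval_X]
    refine Finset.sum_congr rfl fun b _ => ?_
    rw [Finset.sum_mul]
    refine Finset.sum_congr rfl fun a _ => ?_
    have h4 : algebraMap L (Hol (Tube D0 V)) (c (a, b)) =
        pull D0 V (q (a, b)) * algebraMap R (Hol (Tube D0 V)) (MvPolynomial.X 0 ^ (a : ℕ)) := rfl
    rw [h4, map_mul, ev_pull, ev_algebraMap, map_pow, MvPolynomial.eval_X, mul_assoc]
  have hL : IsAlgebraic L h := ⟨S, hS, hroot⟩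
  exact hL.restrictScalars R

/-- Extension of algebraicity to a larger convex open set. -/
theorem isAlgebraic_of_restrict {n : ℕ} {W U : Set (Fin n → ℂ)} (hU : IsOpen U)
    (hUc : Convex ℝ U) (hW : IsOpen W) (hWne : W.Nonempty) (hWU : W ⊆ U)
    (g : (Fin n → ℂ) → ℂ) (hg : DifferentiableOn ℂ g U)
    (h : IsAlgebraic (MvPolynomial (Fin n) ℂ) (mk g (hg.mono hWU))) :
    IsAlgebraic (MvPolynomial (Fin n) ℂ) (mk g hg) := by
  obtain ⟨P, hP, hPg⟩ := h
  refine ⟨P, hP, ?_⟩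
  obtain ⟨f, hf, hfe⟩ := exists_mk (Polynomial.aeval (mk g hg) P)
  rw [hfe]
  obtain ⟨x, hx⟩ := hWne
  have hev : ∀ᶠ y in 𝓝 x, f y = 0 := by
    filter_upwards [hW.mem_nhds hx] with y hy
    have h1 := ev_aeval U ⟨y, hWU hy⟩ (mk g hg) P
    have h2 := ev_aeval W ⟨y, hy⟩ (mk g (hg.mono hWU)) P
    rw [hfe] at h1
    rw [hPg, map_zero] at h2
    exact h1.trans h2.symm
  have h5 := eq_zero_of_eventually hU hUc hf (hWU hx) hev
  exact ext_ev fun y => by rw [map_zero, ev_apply, mk_apply, h5 y y.2]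

/-- Restriction preserves algebraicity. -/
theorem isAlgebraic_restrict {n : ℕ} {W U : Set (Fin n → ℂ)} (hWU : W ⊆ U)
    (g : (Fin n → ℂ) → ℂ) (hg : DifferentiableOn ℂ g U)
    (h : IsAlgebraic (MvPolynomial (Fin n) ℂ) (mk g hg)) :
    IsAlgebraic (MvPolynomial (Fin n) ℂ) (mk g (hg.mono hWU)) := by
  rw [isAlgebraic_iff] at h ⊢
  obtain ⟨P, hP, hPg⟩ := h
  exact ⟨P, hP, fun x => hPg ⟨x, hWU x.2⟩⟩

end Groth.Agent.Gaga.H66.SepStep
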